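import Mathlib
import Cfsg.Prelude.Def_LieTypeChar
import Cfsg.Agent.H687.BNAuto
import Cfsg.Agent.Mrg.Omega.ML.Ex.Typ.List
import Cfsg.Agent.H566.RgdFam

/-!
# S4834, cross characteristic: the geometric data of the families (helper687)

* `CGeo r p S` : split (B, N)-pair of characteristic `r`, rigid for `p`-automorphisms, with an element of `N` commuting
  with a node `t` modulo `B ∩ N` and outside `P.parabolic {t}`;
* `cgeo_of_splitT`, `cgeo_of_rgdT` : from the type;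
* the families.
-/

set_option autoImplicit false

namespace Cfsg.Agent.H687

open Cfsg Cfsg.Agent.LieExceptional.BNPairCore

/-- The geometric data. -/
structure CGeo (r p : ℕ) (S : Type*) [Group S] : Prop where
  out : ∃ (P : Cfsg.BNPair S) (U : Subgroup S) (t n : S), FixBN.Split P r U ∧ DiagFix P p ∧ t ∈ P.S ∧ n ∈ P.N ∧
    n ∉ P.parabolic {t} ∧ len P n ≤ len P (t * n) ∧ (t * n)⁻¹ * (n * t) ∈ P.B

theorem cgeo_of_splitT {S : Type*} [Group S] [Finite S] {r p : ℕ} (hp : p.Prime) (hp5 : 5 ≤ p) {ι : Type*}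
    [Fintype ι] [DecidableEq ι] {M : CoxeterMatrix ι} (h : Omega.ML.Ex.Typ.HasSplitT r M S)
    (hM : Fintype.card ι ≤ 4 ∨ H527.TS.GoodDiag M) (i j : ι) (hij : Even (M i j)) : CGeo r p S := by
  obtain ⟨P, U, e, h1, h2⟩ := h
  obtain ⟨n, hn, hnp, hlen, hcomm⟩ := exists_comm h2 hij
  refine ⟨P, U, e j, n, h1, ?_, (e j).2, hn, hnp, hlen, hcomm⟩
  rcases hM with hM | hM
  · refine diagFix_of_card_le hp hp5 ?_
    rw [← Nat.card_congr e, Nat.card_eq_fintype_card]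
    exact hM
  · exact diagFix_of_type hp hp5 h2 hM

theorem cgeo_of_rgdT {S : Type*} [Group S] [Finite S] [IsSimpleGroup S] {r p : ℕ} (hr : r.Prime) (hp : p.Prime)
    (hp5 : 5 ≤ p) {l : ℕ} {M : CoxeterMatrix (Fin l)} (h : Omega.ML.Ex.Typ.HasRGDT r M S)
    (hM : l ≤ 4 ∨ H527.TS.GoodDiag M) (i j : Fin l) (hij : Even (M i j)) : CGeo r p S :=
  cgeo_of_splitT hp hp5 (h.hasSplitT hr (Nat.pos_of_ne_zero (by rintro rfl; exact i.elim0)))
    (by rwa [Fintype.card_fin]) i j hij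

/-! ### good diagrams -/

open H527.TS (GoodDiag)
open H566 (val)

theorem goodDiag_A (n : ℕ) : GoodDiag (LieRecognition.BNCox.cA n) := by
  refine H527.TS.goodDiag_path _ fun i j hij => ?_
  have hij' : (i : ℕ) ≠ j := fun e => hij (Fin.ext e)
  change LieRecognition.CoxClass.mA (i : ℕ) (j : ℕ) ≠ 2 ↔ _
  unfold LieRecognition.CoxClass.mA
  split_ifs <;> omega

theorem goodDiag_B (n : ℕ) : GoodDiag (CoxeterMatrix.B n) := by
  refine H527.TS.goodDiag_path _ fun i j hij => ?_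
  have hij' : (i : ℕ) ≠ j := fun e => hij (Fin.ext e)
  have hi := i.2
  have hj := j.2
  simp only [CoxeterMatrix.B, Matrix.of_apply, hij, if_false]
  split_ifs <;> omega

theorem goodDiag_D (n : ℕ) : GoodDiag (Nodes.TypeD.M (n + 2)) := by
  have hM : ∀ i j : Fin (n + 4), i ≠ j → ((Nodes.TypeD.M (n + 2)) i j ≠ 2 ↔
      Nodes.TypeD.Adj i j ∨ Nodes.TypeD.Adj j i) := by
    intro i j hij
    rw [Nodes.TypeD.M_apply, if_neg hij]
    split_ifs with h <;> simp [h]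
  refine ⟨val (Nodes.TypeD.M (n + 2)) ⟨n + 1, by omega⟩, (H566.card_val_D n).trans (by norm_num), ?_,
    fun k => if (k : ℕ) ≤ n + 1 then n + 1 - k else 1, ?_⟩
  · intro k
    have hk := k.2
    rw [val]
    have h2 : (Finset.univ.filter fun j => k ≠ j ∧ (Nodes.TypeD.M (n + 2)) k j ≠ 2) ⊆
        {⟨(k : ℕ) - 1, by omega⟩, ⟨if (k : ℕ) ≤ n + 1 then (k : ℕ) + 1 else 0, by split_ifs <;> omega⟩,
          ⟨if (k : ℕ) ≤ n + 1 then (k : ℕ) + 2 else 0, by split_ifs <;> omega⟩,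
          ⟨(k : ℕ) - 2, by omega⟩} := by
      intro j hj
      rw [Finset.mem_filter] at hj
      have h3 := (hM _ _ hj.2.1).1 hj.2.2
      rw [Finset.mem_insert, Finset.mem_insert, Finset.mem_insert, Finset.mem_singleton, Fin.ext_iff, Fin.ext_iff,
        Fin.ext_iff, Fin.ext_iff]
      unfold Nodes.TypeD.Adj at h3
      simp only
      have hj2 := j.2
      split_ifs <;> omega
    exact (Finset.card_le_card h2).trans Finset.card_le_four
  · intro k
    have hk := k.2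
    by_cases h0 : (k : ℕ) = n + 1
    · left
      congr 1
      exact Fin.ext h0
    · right
      by_cases h1 : (k : ℕ) ≤ n + 1
      · have hne : (⟨(k : ℕ) + 1, by omega⟩ : Fin (n + 4)) ≠ k := fun e => by
          have := congrArg Fin.val e
          simp only at this
          omega
        refine ⟨⟨(k : ℕ) + 1, by omega⟩, ⟨hne, (hM _ _ hne).2 (Or.inr (Or.inl ⟨by simp only; omega, rfl⟩))⟩, ?_⟩
        simp only
        rw [if_pos (by omega), if_pos h1]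
        omega
      · have hne : (⟨n + 1, by omega⟩ : Fin (n + 4)) ≠ k := fun e => h0 (congrArg Fin.val e).symm
        refine ⟨⟨n + 1, by omega⟩, ⟨hne, (hM _ _ hne).2 (Or.inl ?_)⟩, ?_⟩
        · by_cases h2 : (k : ℕ) < n + 3
          · exact Or.inl ⟨h2, by simp only; omega⟩
          · exact Or.inr ⟨by omega, by simp only; omega⟩
        · simp only
          rw [if_pos (by omega), if_neg h1]
          omega

theorem goodDiag_E6 : GoodDiag CoxeterMatrix.E₆ :=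
  ⟨3, by decide, by decide, ![2, 1, 1, 0, 1, 2], by decide⟩

theorem goodDiag_E7 : GoodDiag CoxeterMatrix.E₇ :=
  ⟨3, by decide, by decide, ![2, 1, 1, 0, 1, 2, 3], by decide⟩

theorem goodDiag_E8 : GoodDiag CoxeterMatrix.E₈ :=
  ⟨3, by decide, by decide, ![2, 1, 1, 0, 1, 2, 3, 4], by decide⟩

/-! ### the families -/

section Fam

open Omega.ML.Ex.Typ

variable {S : Type*} [Group S] [Finite S] [IsSimpleGroup S] {r p : ℕ} [hr : Fact r.Prime]

theorem even_A {n : ℕ} (hn : 3 ≤ n) : Even (LieRecognition.BNCox.cA n ⟨0, by omega⟩ ⟨2, by omega⟩) := by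
  change Even (LieRecognition.CoxClass.mA 0 2)
  unfold LieRecognition.CoxClass.mA
  simp

theorem even_B {m : ℕ} (hm : 2 ≤ m) : Even (CoxeterMatrix.B m ⟨m - 2, by omega⟩ ⟨m - 1, by omega⟩) := by
  have h : (CoxeterMatrix.B m ⟨m - 2, by omega⟩ ⟨m - 1, by omega⟩) = 4 := by
    have hne : (⟨m - 2, by omega⟩ : Fin m) ≠ ⟨m - 1, by omega⟩ := fun e => by
      have := congrArg Fin.val e
      simp only at this
      omega
    simp only [CoxeterMatrix.B, Matrix.of_apply, hne, if_false]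
    rw [if_pos (by simp)]
  rw [h]
  decide

theorem cgeo_A (hp : p.Prime) (hp5 : 5 ≤ p) {n : ℕ} (hn : 3 ≤ n)
    (h : HasRGDT r (LieRecognition.BNCox.cA n) S) : CGeo r p S :=
  cgeo_of_rgdT hr.1 hp hp5 h (Or.inr (goodDiag_A n)) _ _ (even_A hn)

theorem cgeo_B (hp : p.Prime) (hp5 : 5 ≤ p) {m : ℕ} (hm : 2 ≤ m)
    (h : HasRGDT r (CoxeterMatrix.B m) S) : CGeo r p S :=
  cgeo_of_rgdT hr.1 hp hp5 h (Or.inr (goodDiag_B m)) _ _ (even_B hm)

theorem cgeo_D (hp : p.Prime) (hp5 : 5 ≤ p) {n : ℕ} (h : HasRGDT r (Nodes.TypeD.M (n + 2)) S) : CGeo r p S := by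
  refine cgeo_of_rgdT hr.1 hp hp5 h (Or.inr (goodDiag_D n)) ⟨n + 2, by omega⟩ ⟨n + 3, by omega⟩ ?_
  rw [Nodes.TypeD.M_apply, if_neg (fun e => by
    have := congrArg Fin.val e
    simp only at this
    omega), if_neg]
  · decide
  · unfold Nodes.TypeD.Adj
    simp only
    omega

theorem cgeo_exc (hp : p.Prime) (hp5 : 5 ≤ p) (h : IsExceptionalChevChar r S) : CGeo r p S := by
  rcases typ_of_exc h with h | h | h | h | h
  · exact cgeo_of_rgdT hr.1 hp hp5 h (Or.inl (by norm_num)) 0 1 (by decide)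
  · exact cgeo_of_rgdT hr.1 hp hp5 h (Or.inl (by norm_num)) 0 2 (by decide)
  · exact cgeo_of_rgdT hr.1 hp hp5 h (Or.inr goodDiag_E6) 0 1 (by decide)
  · exact cgeo_of_rgdT hr.1 hp hp5 h (Or.inr goodDiag_E7) 0 1 (by decide)
  · exact cgeo_of_rgdT hr.1 hp hp5 h (Or.inr goodDiag_E8) 0 1 (by decide)

theorem cgeo_tw (hp : p.Prime) (hp5 : 5 ≤ p) (h : IsTwistedE6D4Char r S) : CGeo r p S := by
  obtain ⟨K, _, _, _, q, hq, ⟨hK, ⟨e⟩⟩ | ⟨hK, ⟨e⟩⟩⟩ := h
  · exact cgeo_of_rgdT hr.1 hp hp5 ((typ_twE6 hq hK r).of_equiv e.symm) (Or.inl (by norm_num)) 0 2 (by decide)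
  · exact cgeo_of_rgdT hr.1 hp hp5 ((typ_twD4 hq hK r).of_equiv e.symm) (Or.inl (by norm_num)) 0 1 (by decide)

end Fam

section Orthogonal

open Omega.ML.Ex.Typ
open QuadraticMap
open Cfsg.Agent.LieClassical Cfsg.Agent.LieClassical.OrthCore Cfsg.Agent.LieClassical.OrthTrans
open Cfsg.Agent.LieClassical.OrthSimple Cfsg.Agent.LieClassical.OrthFinite
open Cfsg.Agent.LieClassical.OrthForms
open Cfsg.Agent.TitsThree.KSideO Cfsg.Agent.TitsThree.StdData
open Cfsg.Agent.Nodes Cfsg.Agent.Nodes.WittAll Cfsg.Agent.Nodes.WittU Cfsg.Agent.Nodes.WittInst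
  Cfsg.Agent.TitsThree.Siegel Cfsg.Agent.TitsThree.SiegelGen
  Cfsg.Agent.TitsThree.WittFrame Cfsg.Agent.TitsThree.WBridge Cfsg.Agent.TitsThree.WittWeyl
  Cfsg.Agent.TitsThree.FrameCN

theorem typ_PO_odd {F : Type*} [Field F] {m : ℕ} [Finite F] (h2 : (2 : F) ≠ 0) (hm : 2 ≤ m) {p : ℕ}
    [Fact p.Prime] [CharP F p] :
    HasRGDT p (CoxeterMatrix.B m) (Cfsg.POmega F (Cfsg.quadFormOdd m F)) := by
  rw [← coe_oddForm]
  have hG : LieClassical.OrthTrans.Good (oddForm m F) := by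
    apply good_of_finite (nondeg_oddForm m F h2)
    rw [Module.finrank_fintype_fun_eq_card, Fintype.card_sum, Fintype.card_sum, Fintype.card_fin,
      Fintype.card_unit]
    omega
  have hp : ((embOdd m F).ngt ⟨1, -1 ^ 2, rfl⟩).c ≠ 0 := by
    change (1 : F)⁻¹ * (-1 ^ 2) ≠ 0
    simp
  exact typ_C (model (wodd m F) hG ⟨_, hp⟩) (AmbT.of_amb (amb_O_of_two _ h2) p) hp (by omega)

end Orthogonal

section Classical

open Omega.ML.Ex.Typ

variable {S : Type*} [Group S] [Finite S] [IsSimpleGroup S] {r p : ℕ} [hr : Fact r.Prime]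

theorem cgeo_classical (hp : p.Prime) (hp5 : 5 ≤ p)
    (h : IsPSpChar r S ∨ IsPOmegaOddChar r S ∨ IsPOmegaPlusChar r S ∨ IsPOmegaMinusChar r S) : CGeo r p S := by
  rcases h with h | h | h | h
  · obtain ⟨F, _, _, _, m, hm, -, ⟨e⟩⟩ := h
    exact cgeo_B hp hp5 hm ((typ_PSp (by omega)).of_equiv e.symm)
  · obtain ⟨F, _, _, _, m, hm, hodd, ⟨e⟩⟩ := h
    have h2 : (2 : F) ≠ 0 := by
      intro h2
      have h3 : CharP F 2 := CharTwo.of_one_ne_zero_of_two_eq_zero one_ne_zero h2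
      obtain ⟨k, -, hk⟩ := FiniteField.card F 2
      rw [hk] at hodd
      exact absurd hodd (by
        rw [Nat.not_odd_iff_even]
        exact (even_two).pow_of_ne_zero k.ne_zero)
    exact cgeo_B hp hp5 (by omega) ((typ_PO_odd h2 (by omega)).of_equiv e.symm)
  · obtain ⟨F, _, _, _, m, hm, ⟨e⟩⟩ := h
    obtain ⟨n, rfl⟩ : ∃ n, m = n + 4 := ⟨m - 4, by omega⟩
    exact cgeo_D hp hp5 ((typ_PO_plus (n + 1)).of_equiv e.symm)
  · obtain ⟨F, _, _, _, m, a, b, hm, hab, ⟨e⟩⟩ := h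
    exact cgeo_B hp hp5 (by omega) ((typ_PO_minus hab (by omega)).of_equiv e.symm)

theorem cgeo_PSL (hp : p.Prime) (hp5 : 5 ≤ p) {F : Type*} [Field F] [Finite F] [CharP F r] {n : ℕ} (hn : 4 ≤ n)
    (e : S ≃* Matrix.ProjectiveSpecialLinearGroup (Fin n) F) : CGeo r p S := by
  obtain ⟨k, rfl⟩ : ∃ k, n = k + 1 := ⟨n - 1, by omega⟩
  exact cgeo_A hp hp5 (by omega) ((typ_PSL k).of_equiv e.symm)

theorem cgeo_PSU (hp : p.Prime) (hp5 : 5 ≤ p) {F : Type*} [Field F] [Fintype F] [CharP F r] {n q : ℕ}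
    (hF : Fintype.card F = q ^ 2) (hn : 4 ≤ n) (e : S ≃* PSU n F q) : CGeo r p S := by
  obtain ⟨m, hm, h⟩ := typ_PSU (p := r) hF (by omega : 3 ≤ n)
  exact cgeo_B hp hp5 (by omega) (h.of_equiv e.symm)

end Classical

end Cfsg.Agent.H687
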