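import Mathlib
import Cfsg.Agent.H687.CGeo
import Cfsg.Agent.Schreier.TwFFour
import Cfsg.Agent.ChevalleyStructure.TwF4.WeylDih
import Cfsg.Agent.S1113

/-!
# S4834, cross characteristic: the groups `²F₄(q)` (helper687)
-/

set_option autoImplicit false
set_option linter.unusedSectionVars false

namespace Cfsg.Agent.H687

open Cfsg Cfsg.Lie
open Cfsg.Agent.ChevalleyStructure.TwF4.Rel
open Cfsg.Agent.ChevalleyStructure.TwF4.Groups Cfsg.Agent.ChevalleyStructure.TwF4.RankOne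
open Cfsg.Agent.ChevalleyStructure.TwF4.Twisted Cfsg.Agent.ChevalleyStructure.TwF4.TwistedFix
open Cfsg.Agent.ChevalleyStructure.TwF4.BN
open Cfsg.Agent.ChevalleyStructure.TwF4.Torus (T chi T_conj_X T_inr)
open Cfsg.Agent.ChevalleyStructure.TwF4.TwGen (tc chi_tc_24 chi_tc_25 chi_tc_33 chi_tc_27 chi28 chi30 pow_all)
open Cfsg.Agent.ChevalleyStructure.TwF4.TorusFix (mem_iff pow_unit T_rt rt)
open Cfsg.Agent.ChevalleyStructure.TwF4.Fix (Fix)
open Cfsg.Agent.ChevalleyStructure.TwF4.NStruct (R permHom permHom_eq_one_iff)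
open Cfsg.Agent.ChevalleyStructure.TwF4.NRoot (P1 P2 P1_val P2_val permHom_n1 permHom_n2)
open Cfsg.Agent.ChevalleyStructure.TwF4.WeylDih (P_pow P1_mul_self P2_mul_self iota iota_injective)
open Cfsg.Agent.Schreier.Basic Cfsg.Agent.Schreier.Tools Cfsg.Agent.Schreier.BNSch Cfsg.Agent.Schreier.BNUse
open Cfsg.Agent.Schreier.TwFFour

variable {K : Type*} [Field K] [Fintype K] {m : ℕ}

/-- the split (B, N)-pair of `²F₄(q)`, `q ≥ 2` -/
theorem exists_split_twF (hK : Fintype.card K = 2 ^ (2 * m + 1)) [CharP K 2] {φ : K →+* K} (hφ : Rln φ (2 ^ m)) :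
    ∃ P : Cfsg.BNPair ↥(twistedF4 K (2 ^ m)), P.B = (chevF4.borelSubgroup K).subgroupOf (twistedF4 K (2 ^ m)) ∧
      P.N = (chevF4.monomialSubgroup K).subgroupOf (twistedF4 K (2 ^ m)) ∧ P.S = Set.range (twistedData hφ).nG ∧
      FixBN.Split P 2 (U0 K (2 ^ m)) := by
  have : Fact (Nat.Prime 2) := ⟨Nat.prime_two⟩
  obtain ⟨P, hPB, hPN, hPS⟩ := exists_bnPair hφ
  have hB : P.B = B0 K (2 ^ m) := hPB
  have hdec := dec hK hφ
  refine ⟨P, hPB, hPN, hPS, ?_, ?_, isPGroup_U0 hK, ?_, ⟨2 ^ (2 * m + 1) - 1, ?_, ?_⟩, ?_, ?_⟩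
  · rw [hB]; exact U0_le_B0
  · intro b hb u hu
    rw [hB] at hb
    exact conj_U0 hb hu
  · intro b hb
    rw [hB] at hb
    obtain ⟨s, t, u, hu, hbu⟩ := hdec.1 b hb
    refine ⟨u, hu, ?_⟩
    rw [hPN, Subgroup.mem_subgroupOf, Subgroup.coe_mul, Subgroup.coe_inv, hbu, inv_mul_cancel_left]
    exact Cfsg.Agent.ChevalleyStructure.TwF4.NStruct.T_mem_N _
  · have h1 : 2 ∣ 2 ^ (2 * m + 1) := dvd_pow_self 2 (by omega)
    have h2 : 0 < 2 ^ (2 * m + 1) := by positivity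
    omega
  · intro h hh hN
    rw [hPB, Subgroup.mem_subgroupOf] at hh
    rw [hPN, Subgroup.mem_subgroupOf] at hN
    have h1 := borel_inf_N ⟨hh, hN⟩
    obtain ⟨s, t, hst⟩ := (mem_iff hK (h : GL chevF4.Idx K)).1 ⟨h1, h.2⟩
    apply Subtype.ext
    rw [Subgroup.coe_pow, hst, ← map_pow]
    have h2 : tc (2 ^ m) s t ^ (2 ^ (2 * m + 1) - 1) = 1 := by
      have h3 : ∀ x : Kˣ, x ^ (2 ^ (2 * m + 1) - 1) = 1 := by
        intro x
        have h4 := pow_card_eq_one' (x := x)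
        rwa [Nat.card_units, Nat.card_eq_fintype_card, hK] at h4
      funext l
      rw [Pi.pow_apply, h3]; rfl
    rw [h2, map_one]; rfl
  · intro s hs
    rw [hPS] at hs
    obtain ⟨i, rfl⟩ := hs
    have hi : i = 0 ∨ i = 1 := by
      revert i; decide
    rcases hi with rfl | rfl
    · exact ⟨V1 K (2 ^ m), node1 hφ hB⟩
    · exact ⟨V8 K (2 ^ m), node2 hφ hB⟩
  · rw [hPB, ← Subgroup.inf_subgroupOf_right]
    exact Cfsg.Agent.S1113.result hK

theorem iota_sr0 : iota (DihedralGroup.sr 0) = P1 := by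
  show P1 * (P1 * P2) ^ (0 : ZMod 8).val = P1
  simp

theorem iota_sr1 : iota (DihedralGroup.sr 1) = P2 := by
  have h : (1 : ZMod 8).val = 1 := by decide
  show P1 * (P1 * P2) ^ (1 : ZMod 8).val = P2
  rw [h, pow_one, ← mul_assoc, P1_mul_self, one_mul]

/-- **`²F₄(q)`.** -/
theorem cgeo_twF (hK : Fintype.card K = 2 ^ (2 * m + 1)) {p : ℕ} (hp : p.Prime) (hp5 : 5 ≤ p) :
    CGeo 2 p ↥(twistedF4 K (2 ^ m)) := by
  have : CharP K 2 := charP_two hK
  have : Fact (Nat.Prime 2) := ⟨Nat.prime_two⟩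
  obtain ⟨φ, hφ⟩ := exists_rln hK
  obtain ⟨P, hPB, hPN, hPS, hS⟩ := exists_split_twF hK hφ
  let G : Type _ := ↥(twistedF4 K (2 ^ m))
  let a : ↥(twistedF4 K (2 ^ m)) := ⟨n1 K, n1_mem⟩
  let b : ↥(twistedF4 K (2 ^ m)) := ⟨n2 K, n2_mem hφ.pos⟩
  have haS : a ∈ P.S := by rw [hPS]; exact ⟨0, rfl⟩
  have hbS : b ∈ P.S := by rw [hPS]; exact ⟨1, rfl⟩
  have haN : a ∈ P.N := LieExceptional.BNPairCore.mem_N haS
  have hbN : b ∈ P.N := LieExceptional.BNPairCore.mem_N hbS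
  have hmono : ∀ g : ↥(twistedF4 K (2 ^ m)), g ∈ P.N → (g : GL chevF4.Idx K) ∈ chevF4.monomialSubgroup K := by
    intro g hg
    rw [hPN, Subgroup.mem_subgroupOf] at hg
    exact hg
  -- the permutation of an element of `N`
  let π : P.N →* Equiv.Perm R := (permHom K).comp
    { toFun := fun g => ⟨((g : ↥(twistedF4 K (2 ^ m))) : GL chevF4.Idx K), hmono g g.2⟩
      map_one' := rfl
      map_mul' := fun _ _ => rfl }
  have hπa : π ⟨a, haN⟩ = P1 := permHom_n1 _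
  have hπb : π ⟨b, hbN⟩ = P2 := permHom_n2 _
  have hπB : ∀ g : P.N, (g : ↥(twistedF4 K (2 ^ m))) ∈ P.B ↔ π g = 1 := by
    intro g
    rw [hPB, Subgroup.mem_subgroupOf]
    have hgN := hmono g g.2
    constructor
    · intro h
      exact (permHom_eq_one_iff _).2 (borel_inf_N ⟨h, hgN⟩)
    · intro h
      exact (le_sup_right : chevF4.diagonalSubgroup K ≤ chevF4.borelSubgroup K) ((permHom_eq_one_iff _).1 h)
  obtain ⟨w, hw⟩ : ∃ w : P.N, w = ⟨a, haN⟩ * (⟨b, hbN⟩ * ⟨a, haN⟩) ^ 3 := ⟨_, rfl⟩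
  have hπw : π w = iota (DihedralGroup.sr 0 * (DihedralGroup.sr 1 * DihedralGroup.sr 0) ^ 3) := by
    rw [hw, map_mul, map_pow, map_mul, hπa, hπb, map_mul, map_pow, map_mul, iota_sr0, iota_sr1]
  have hpar : (w : ↥(twistedF4 K (2 ^ m))) ∉ P.parabolic {b} := by
    intro h
    rcases mem_par_N hbS w.2 h with h | h
    · rw [hπB, hπw, ← map_one iota] at h
      exact absurd (iota_injective h) (by decide)
    · have h1 : ((w⁻¹ * ⟨b, hbN⟩ : P.N) : ↥(twistedF4 K (2 ^ m))) ∈ P.B := h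
      rw [hπB, map_mul, map_inv, hπw, hπb, ← iota_sr1, ← map_inv, ← map_mul, ← map_one iota] at h1
      exact absurd (iota_injective h1) (by decide)
  have hcomm : (b * (w : ↥(twistedF4 K (2 ^ m))))⁻¹ * ((w : ↥(twistedF4 K (2 ^ m))) * b) ∈ P.B := by
    have h1 : (((⟨b, hbN⟩ * w)⁻¹ * (w * ⟨b, hbN⟩) : P.N) : ↥(twistedF4 K (2 ^ m))) ∈ P.B := by
      rw [hπB, map_mul, map_inv, map_mul, map_mul, hπw, hπb, ← iota_sr1, ← map_mul, ← map_mul, ← map_inv, ← map_mul,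
        ← map_one iota]
      congr 1
    exact h1
  obtain ⟨n, hn, h1, h2, h3⟩ := exists_comm_of hbS w.2 hpar hcomm
  refine ⟨P, _, b, n, hS, diagFix_of_card_le hp hp5 ?_, hbS, hn, h1, h2, h3⟩
  rw [hPS]
  have h4 : Nat.card (Set.range (twistedData hφ).nG) ≤ Nat.card (Fin 2) :=
    Nat.card_le_card_of_surjective (Set.rangeFactorization _) Set.rangeFactorization_surjective
  rw [Nat.card_fin] at h4
  exact h4.trans (by norm_num)

end Cfsg.Agent.H687
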