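import Mathlib
import Cfsg.Agent.H687.CGeo
import Cfsg.Agent.H687.Theta
import Cfsg.Agent.H949.SubDeg
import Cfsg.Agent.H949.SubInv
import Cfsg.Agent.H415.Cross

/-!
# S4834, cross characteristic, groups with the geometric data (helper687)

`cross_of_cgeo` : a constituent of `1_H^S`, `H` a minimal parabolic subgroup.
-/

set_option autoImplicit false

namespace Cfsg.Agent.H687

open Cfsg Cfsg.Agent.LieExceptional.BNPairCore Cfsg.Agent.H415.Cross

theorem cross_of_cgeo {S : Type*} [Group S] [Finite S] [IsSimpleGroup S] (hna : ∃ a b : S, a * b ≠ b * a) {r p : ℕ}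
    [hr : Fact r.Prime] (hp : p.Prime) (hpr : p ≠ r) (h : CGeo r p S)
    (hdz : ∀ χ : S → ℂ, IsIrrCharacter S χ → χ ≠ 1 → ∀ k, charDegree χ = r ^ k →
      r ^ (Nat.card S).factorization r ∣ charDegree χ) : Cross p r S := by
  classical
  have : Fintype S := Fintype.ofFinite S
  obtain ⟨P, U, t, n, hS, hD, ht, hn, hnp, hlen, hcomm⟩ := h.out
  set H := P.parabolic {t} with hH
  have : Fintype H := Fintype.ofFinite H
  have hidx : ¬ p ∣ (H.map (MulAut.conj n).toMonoidHom).relIndex H := by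
    intro h1
    obtain ⟨k, hk⟩ := relIndex_B hS hn
    have h2 := h1.trans (relIndex_dvd ht hn hlen hcomm)
    rw [hk] at h2
    exact hpr ((Nat.prime_dvd_prime_iff_eq hp hr.1).1 (hp.dvd_of_dvd_pow h2))
  obtain ⟨χ, hχ, hχ1, hsum, hpχ⟩ := H949.SubDeg.subdeg_relIndex H n hp hnp hidx
  have hdeg := charDegree_eq (Characters.Core.isIrr_isCharacter hχ)
  refine ⟨χ, hχ, ⟨charDegree χ, hdeg, ?_, hpχ, ?_⟩, ?_⟩
  · intro h1
    apply hχ1
    rw [h1, Nat.cast_one] at hdeg
    exact irr_eq_one hna hχ hdeg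
  · intro k hk
    apply hsum
    exact H949.SubInv.sum_eq_zero hr.1 H (fun x => dvd_card_inf hS ht x) hχ (hdz χ hχ hχ1 k hk)
  · intro φ hφ s
    obtain ⟨s₀, hs₀⟩ := exists_conj_dc hS hD hφ
    refine H949.SubInv.inv_of_dc' H hχ hsum φ s₀ (fun g => ?_) s
    obtain ⟨a, ha, b, hb, h1⟩ := mem_C.1 (hs₀ g)
    exact ⟨a, B_le_par t ha, b, B_le_par t hb, h1⟩

end Cfsg.Agent.H687
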